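import Mathlib
import Cfsg.Prelude.Def_TwoFusion

set_option autoImplicit false

namespace Cfsg.Agent.Lib.Helper93

open Subgroup
open scoped Pointwise

/-- the facts on generalized quaternion groups that are used -/
theorem quat_data (n : ℕ) (hn : 1 ≤ n) : ∃ z t t' : QuaternionGroup (2 ^ n),
    z ≠ 1 ∧ z * z = 1 ∧ t * t = z ∧ t' * t' = z ∧ t * t' ≠ t' * t ∧
      ∀ q : QuaternionGroup (2 ^ n), q * q = 1 → q = 1 ∨ q = z := by
  set m : ℕ := 2 ^ n with hm
  have hm2 : 2 ≤ m := by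
    calc 2 = 2 ^ 1 := by norm_num
      _ ≤ 2 ^ n := Nat.pow_le_pow_right (by norm_num) hn
  have : NeZero (2 * m) := ⟨by omega⟩
  have hmne : ((m : ℕ) : ZMod (2 * m)) ≠ 0 := by
    intro h
    rw [ZMod.natCast_eq_zero_iff] at h
    have := Nat.le_of_dvd (by omega) h
    omega
  have hmm : ((m : ℕ) : ZMod (2 * m)) + (m : ZMod (2 * m)) = 0 := by
    have : ((2 * m : ℕ) : ZMod (2 * m)) = 0 := ZMod.natCast_self _
    rw [← this]; push_cast; ring
  refine ⟨QuaternionGroup.a (m : ZMod (2 * m)), QuaternionGroup.xa 0, QuaternionGroup.xa 1,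
    ?_, ?_, ?_, ?_, ?_, ?_⟩
  · rw [QuaternionGroup.one_def]
    intro h
    exact hmne (QuaternionGroup.a.inj h)
  · rw [QuaternionGroup.a_mul_a, hmm, QuaternionGroup.one_def]
  · rw [QuaternionGroup.xa_mul_xa]; simp
  · rw [QuaternionGroup.xa_mul_xa]; simp
  · rw [QuaternionGroup.xa_mul_xa, QuaternionGroup.xa_mul_xa]
    intro h
    have h1 := QuaternionGroup.a.inj h
    have h2 : ((2 : ℕ) : ZMod (2 * m)) = 0 := by
      push_cast
      linear_combination h1
    rw [ZMod.natCast_eq_zero_iff] at h2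
    have := Nat.le_of_dvd (by omega) h2
    omega
  · intro q hq
    rcases q with i | i
    · rw [QuaternionGroup.a_mul_a, QuaternionGroup.one_def] at hq
      have h1 := QuaternionGroup.a.inj hq
      have h2 : ((i.val + i.val : ℕ) : ZMod (2 * m)) = 0 := by
        push_cast
        rw [ZMod.natCast_zmod_val]; exact h1
      rw [ZMod.natCast_eq_zero_iff] at h2
      have h3 : i.val < 2 * m := ZMod.val_lt i
      obtain ⟨c, hc⟩ := h2
      have hc' : c = 0 ∨ c = 1 := by
        rcases c with _ | _ | c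
        · left; rfl
        · right; rfl
        · exfalso; nlinarith
      rcases hc' with rfl | rfl
      · left
        have : i.val = 0 := by omega
        rw [QuaternionGroup.one_def, (ZMod.val_eq_zero i).1 this]
      · right
        have : i.val = m := by omega
        congr 1
        have h4 := ZMod.natCast_zmod_val i
        rw [this] at h4
        exact h4.symm
    · exfalso
      rw [QuaternionGroup.xa_mul_xa, QuaternionGroup.one_def] at hq
      have h1 := QuaternionGroup.a.inj hq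
      apply hmne
      simpa using h1

section main

variable {G : Type*} [Group G]

/-- square roots of `e` inside `S` -/
def sqRoots (S : Subgroup G) (e : G) : Set G := {s | s ∈ S ∧ s * s = e}

theorem ncard_sqRoots_conj [Finite G] (S : Subgroup G) (e g : G)
    (hg : g ∈ Subgroup.normalizer (S : Set G)) :
    (sqRoots S (g * e * g⁻¹)).ncard = (sqRoots S e).ncard := by
  have : sqRoots S (g * e * g⁻¹) = (fun s => g * s * g⁻¹) '' sqRoots S e := by
    ext s
    constructor
    · rintro ⟨hs, hss⟩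
      refine ⟨g⁻¹ * s * g, ⟨?_, ?_⟩, by group⟩
      · have := (Subgroup.mem_normalizer_iff.1 (inv_mem hg) s).1 hs
        simpa using this
      · have : g⁻¹ * s * g * (g⁻¹ * s * g) = g⁻¹ * (s * s) * g := by group
        rw [this, hss]; group
    · rintro ⟨s', ⟨hs, hss⟩, rfl⟩
      refine ⟨(Subgroup.mem_normalizer_iff.1 hg s').1 hs, ?_⟩
      have : g * s' * g⁻¹ * (g * s' * g⁻¹) = g * (s' * s') * g⁻¹ := by group
      rw [this, hss]
  rw [this]
  apply Set.ncard_image_of_injective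
  intro a b hab
  simpa using hab

variable (S Q R : Subgroup G) (hQR : Cfsg.IsInternalDirectProduct Q R S)
  (z t t' : G) (hzQ : z ∈ Q) (htQ : t ∈ Q) (ht'Q : t' ∈ Q) (hz1 : z ≠ 1) (hzz : z * z = 1)
  (htt : t * t = z) (ht't' : t' * t' = z) (hnc : t * t' ≠ t' * t)
  (hq : ∀ q ∈ Q, q * q = 1 → q = 1 ∨ q = z)
  (hR : ∀ r ∈ R, orderOf r = 2 → ∀ s ∈ R, r * s = s * r)

include hQR in
theorem idp_decomp {s : G} (hs : s ∈ S) : ∃ q ∈ Q, ∃ r ∈ R, s = q * r := by
  obtain ⟨_, _, hc, _, hsup⟩ := hQR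
  have hn : Q ≤ Subgroup.normalizer (R : Set G) := by
    intro q hq
    rw [Subgroup.mem_normalizer_iff]
    intro r
    constructor
    · intro hr
      rw [hc q hq r hr]; simpa using hr
    · intro hr
      have h1 := hc q⁻¹ (inv_mem hq) _ hr
      have h2 : r = q⁻¹ * (q * r * q⁻¹) * q := by group
      rw [h2, h1]; simpa using hr
  have h := Subgroup.coe_mul_of_left_le_normalizer_right Q R hn
  have hs' : s ∈ ((Q ⊔ R : Subgroup G) : Set G) := by rw [hsup]; exact hs
  rw [h] at hs'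
  obtain ⟨q, hq, r, hr, rfl⟩ := Set.mem_mul.1 hs'
  exact ⟨q, hq, r, hr, rfl⟩

include hQR in
theorem idp_sq_split {q r e : G} (hq' : q ∈ Q) (hr : r ∈ R) (he : e ∈ R)
    (h : (q * r) * (q * r) = e) : q * q = 1 ∧ r * r = e := by
  obtain ⟨_, _, hc, hinf, _⟩ := hQR
  have h1 : (q * r) * (q * r) = (q * q) * (r * r) := by
    calc (q * r) * (q * r) = q * (r * q) * r := by group
      _ = q * (q * r) * r := by rw [hc q hq' r hr]
      _ = _ := by group
  rw [h1] at h
  have h2 : q * q = e * (r * r)⁻¹ := by rw [← h]; group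
  have h3 : q * q ∈ Q ⊓ R := Subgroup.mem_inf.2
    ⟨mul_mem hq' hq', by rw [h2]; exact mul_mem he (inv_mem (mul_mem hr hr))⟩
  rw [hinf, Subgroup.mem_bot] at h3
  refine ⟨h3, ?_⟩
  rw [h3, one_mul] at h
  exact h

include hz1 hzz hq in
theorem z_central_Q {u : G} (hu : u ∈ Q) (hzQ : z ∈ Q) : z * u = u * z := by
  have h1 : u * z * u⁻¹ ∈ Q := mul_mem (mul_mem hu hzQ) (inv_mem hu)
  have h2 : (u * z * u⁻¹) * (u * z * u⁻¹) = 1 := by
    have : (u * z * u⁻¹) * (u * z * u⁻¹) = u * (z * z) * u⁻¹ := by group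
    rw [this, hzz]; group
  rcases hq _ h1 h2 with h3 | h3
  · exfalso
    apply hz1
    have : z = u⁻¹ * (u * z * u⁻¹) * u := by group
    rw [this, h3]; group
  · have := congrArg (· * u) h3
    simpa using this.symm

include hQR hz1 hzz hq hzQ in
/-- a square root in `S` of an element of `R` commutes with `Q`. -/
theorem sqRoot_comm_Q {e s u : G} (he : e ∈ R) (hs : s ∈ sqRoots S e) (hu : u ∈ Q) :
    s * u = u * s := by
  obtain ⟨q, hq', r, hr, rfl⟩ := idp_decomp S Q R hQR hs.1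
  obtain ⟨h1, _⟩ := idp_sq_split S Q R hQR hq' hr he hs.2
  have hc := hQR.2.2.1
  have h2 : q * u = u * q := by
    rcases hq q hq' h1 with h | h
    · rw [h]; simp
    · rw [h]; exact z_central_Q Q z hz1 hzz hq hu hzQ
  calc q * r * u = q * (r * u) := by group
    _ = q * (u * r) := by rw [hc u hu r hr]
    _ = (q * u) * r := by group
    _ = (u * q) * r := by rw [h2]
    _ = _ := by group

include hQR hz1 hzz hq hzQ hR in
/-- elements of `S` with trivial square are central in `S` and lie in `R` or `z R`. -/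
theorem invol_central {e : G} (he : e ∈ S) (hee : e * e = 1) :
    (∀ s ∈ S, e * s = s * e) ∧ (e ∈ R ∨ ∃ r ∈ R, e = z * r) := by
  obtain ⟨q, hq', r, hr, rfl⟩ := idp_decomp S Q R hQR he
  obtain ⟨h1, h2⟩ := idp_sq_split S Q R hQR hq' hr (one_mem R) hee
  have hc := hQR.2.2.1
  have hrR : ∀ s ∈ R, r * s = s * r := by
    by_cases hr1 : r = 1
    · intro s _; rw [hr1]; simp
    · apply hR r hr
      rw [orderOf_eq_iff (by norm_num)]
      refine ⟨by rw [pow_two]; exact h2, ?_⟩
      intro m hm hm0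
      have : m = 1 := by omega
      rw [this, pow_one]; exact hr1
  have hqQ : ∀ u ∈ Q, q * u = u * q := by
    intro u hu
    rcases hq q hq' h1 with h | h
    · rw [h]; simp
    · rw [h]; exact z_central_Q Q z hz1 hzz hq hu hzQ
  constructor
  · intro s hs
    obtain ⟨u, hu, v, hv, rfl⟩ := idp_decomp S Q R hQR hs
    calc q * r * (u * v) = q * (r * u) * v := by group
      _ = q * (u * r) * v := by rw [hc u hu r hr]
      _ = (q * u) * (r * v) := by group
      _ = (u * q) * (v * r) := by rw [hqQ u hu, hrR v hv]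
      _ = u * (q * v) * r := by group
      _ = u * (v * q) * r := by rw [hc q hq' v hv]
      _ = _ := by group
  · rcases hq q hq' h1 with h | h
    · left; rw [h]; simpa using hr
    · right; exact ⟨r, hr, by rw [h]⟩

include hQR hz1 hzz hq hzQ htQ ht'Q htt ht't' hnc in
theorem ncard_sqRoots_lt [Finite G] {e s₀ : G} (he : e ∈ R) (hs₀ : s₀ ∈ sqRoots S e) :
    (sqRoots S e).ncard < (sqRoots S (e * z)).ncard := by
  have hQS := hQR.1
  have hcomm : ∀ s ∈ sqRoots S e, ∀ u ∈ Q, s * u = u * s := fun s hs u hu =>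
    sqRoot_comm_Q S Q R hQR z hzQ hz1 hzz hq he hs hu
  have hmem : ∀ s ∈ sqRoots S e, ∀ u ∈ Q, u * u = z → s * u ∈ sqRoots S (e * z) := by
    intro s hs u hu huu
    refine ⟨mul_mem hs.1 (hQS hu), ?_⟩
    calc s * u * (s * u) = s * (u * s) * u := by group
      _ = s * (s * u) * u := by rw [hcomm s hs u hu]
      _ = (s * s) * (u * u) := by group
      _ = _ := by rw [hs.2, huu]
  have h1 : ((fun s => s * t) '' sqRoots S e).ncard = (sqRoots S e).ncard :=
    Set.ncard_image_of_injective _ (mul_left_injective t)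
  rw [← h1]
  apply Set.ncard_lt_ncard _ (Set.toFinite _)
  rw [Set.ssubset_iff_of_subset]
  · refine ⟨s₀ * t', hmem s₀ hs₀ t' ht'Q ht't', ?_⟩
    rintro ⟨s, hs, hst⟩
    apply hnc
    have hst' : s * t = s₀ * t' := hst
    have e1 : t' = s₀⁻¹ * s * t := by rw [mul_assoc, hst']; group
    have c1 : t * s = s * t := (hcomm s hs t htQ).symm
    have c2 : t * s₀⁻¹ = s₀⁻¹ * t := by
      have := hcomm s₀ hs₀ t htQ
      calc t * s₀⁻¹ = s₀⁻¹ * (s₀ * t) * s₀⁻¹ := by group
        _ = s₀⁻¹ * (t * s₀) * s₀⁻¹ := by rw [this]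
        _ = _ := by group
    rw [e1]
    calc t * (s₀⁻¹ * s * t) = (t * s₀⁻¹) * s * t := by group
      _ = s₀⁻¹ * (t * s) * t := by rw [c2]; group
      _ = _ := by rw [c1]; group
  · rintro _ ⟨s, hs, rfl⟩
    exact hmem s hs t htQ htt

end main

theorem prod_family_props {A ι : Type*} [CommGroup A] [Fintype ι] (F : ι → A) (z : A)
    (RA : Subgroup A) (hodd : Odd (Fintype.card ι)) (hzz : z * z = 1) (hzR : z ∉ RA)
    (hF : ∀ c, z⁻¹ * F c ∈ RA) (hFF : ∀ c, F c * F c = 1) :
    (∏ c, F c) ≠ 1 ∧ (∏ c, F c) * (∏ c, F c) = 1 := by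
  constructor
  · intro h
    have h1 : ∏ c, F c = z ^ Fintype.card ι * ∏ c, (z⁻¹ * F c) := by
      rw [Finset.prod_mul_distrib, Finset.prod_const, Finset.card_univ]; simp
    obtain ⟨k, hk⟩ := hodd
    have h2 : z ^ Fintype.card ι = z := by
      rw [hk, pow_succ, pow_mul, pow_two, hzz, one_pow, one_mul]
    rw [h2, h] at h1
    apply hzR
    have : z = (∏ c, (z⁻¹ * F c))⁻¹ := eq_inv_of_mul_eq_one_left h1.symm
    rw [this]; exact inv_mem (Subgroup.prod_mem _ (fun c _ => hF c))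
  · rw [← Finset.prod_mul_distrib]; exact Finset.prod_eq_one (fun c _ => hFF c)

theorem exists_isolated_involution {G : Type*} [Group G] [Finite G] (S : Sylow 2 G)
    (Q R : Subgroup G) (hQR : Cfsg.IsInternalDirectProduct Q R (S : Subgroup G))
    (z t t' : G) (hzQ : z ∈ Q) (htQ : t ∈ Q) (ht'Q : t' ∈ Q) (hz1 : z ≠ 1) (hzz : z * z = 1)
    (htt : t * t = z) (ht't' : t' * t' = z) (hnc : t * t' ≠ t' * t)
    (hq : ∀ q ∈ Q, q * q = 1 → q = 1 ∨ q = z)
    (hR : ∀ r ∈ R, orderOf r = 2 → ∀ s ∈ R, r * s = s * r) :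
    ∃ e : G, e ∈ S ∧ orderOf e = 2 ∧ ∀ g : G, g * e * g⁻¹ ∈ S → g * e * g⁻¹ = e := by
  classical
  have : Fact (Nat.Prime 2) := ⟨Nat.prime_two⟩
  set S' : Subgroup G := (S : Subgroup G) with hS'
  have hQS : Q ≤ S' := hQR.1
  have hzS : z ∈ S' := hQS hzQ
  have hzR : z ∉ R := fun h => hz1 (by
    have h1 : z ∈ Q ⊓ R := Subgroup.mem_inf.2 ⟨hzQ, h⟩
    rwa [hQR.2.2.2.1, Subgroup.mem_bot] at h1)
  have hcen := fun {e : G} (he : e ∈ S') (hee : e * e = 1) =>
    invol_central S' Q R hQR z hzQ hz1 hzz hq hR he hee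
  let ρ : G → ℕ := fun e => (sqRoots S' e).ncard
  let E : Set G := {e | e ∈ S' ∧ e * e = 1}
  have h1E : (1 : G) ∈ E := ⟨one_mem _, by simp⟩
  obtain ⟨e₀, he₀, hmax⟩ := (Set.toFinite E).toFinset.exists_max_image ρ ⟨1, by simpa using h1E⟩
  have he₀E : e₀ ∈ E := by simpa using he₀
  have hmax' : ∀ e ∈ E, ρ e ≤ ρ e₀ := fun e he => hmax e (by simpa using he)
  have hnotR : ∀ e ∈ E, ρ e = ρ e₀ → e ∉ R := by
    intro e he hρ heR
    have hpos : 0 < ρ e := by
      rw [hρ]
      refine lt_of_lt_of_le ?_ (hmax' 1 h1E)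
      exact (Set.ncard_pos (Set.toFinite _)).2 ⟨1, one_mem _, by simp⟩
    obtain ⟨s₀, hs₀⟩ := (Set.ncard_pos (Set.toFinite _)).1 hpos
    have hlt := ncard_sqRoots_lt S' Q R hQR z t t' hzQ htQ ht'Q hz1 hzz htt ht't' hnc hq heR hs₀
    have hezE : e * z ∈ E := by
      refine ⟨mul_mem he.1 hzS, ?_⟩
      have := (hcen he.1 he.2).1 z hzS
      calc e * z * (e * z) = e * (z * e) * z := by group
        _ = e * (e * z) * z := by rw [this]
        _ = (e * e) * (z * z) := by group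
        _ = 1 := by rw [he.2, hzz, one_mul]
    have h3 := hmax' _ hezE
    change ρ e < ρ (e * z) at hlt
    omega
  set Nn : Subgroup G := Subgroup.normalizer (S' : Set G) with hNn
  have hconjE : ∀ g ∈ Nn, g * e₀ * g⁻¹ ∈ E ∧ ∃ r ∈ R, g * e₀ * g⁻¹ = z * r := by
    intro g hg
    have h1 : g * e₀ * g⁻¹ ∈ E := ⟨(Subgroup.mem_normalizer_iff.1 hg _).1 he₀E.1, by
      have : g * e₀ * g⁻¹ * (g * e₀ * g⁻¹) = g * (e₀ * e₀) * g⁻¹ := by group
      rw [this, he₀E.2]; group⟩
    refine ⟨h1, ?_⟩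
    have h2 : ρ (g * e₀ * g⁻¹) = ρ e₀ := ncard_sqRoots_conj S' e₀ g hg
    rcases (hcen h1.1 h1.2).2 with h3 | h3
    · exact absurd h3 (hnotR _ h1 h2)
    · exact h3
  let ZS : Subgroup G := S' ⊓ Subgroup.centralizer (S' : Set G)
  let instC : CommGroup ZS := { (inferInstance : Group ZS) with
    mul_comm := fun a b => Subtype.ext
      ((Subgroup.mem_centralizer_iff.1 (Subgroup.mem_inf.1 b.2).2) a (Subgroup.mem_inf.1 a.2).1) }
  have hEZ : ∀ e ∈ E, e ∈ ZS := fun e he => Subgroup.mem_inf.2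
    ⟨he.1, Subgroup.mem_centralizer_iff.2 (fun s hs => ((hcen he.1 he.2).1 s hs).symm)⟩
  have hZSn : ∀ h ∈ Nn, ∀ x ∈ ZS, h * x * h⁻¹ ∈ ZS := by
    intro h hh x hx
    obtain ⟨hx1, hx2⟩ := Subgroup.mem_inf.1 hx
    refine Subgroup.mem_inf.2 ⟨(Subgroup.mem_normalizer_iff.1 hh _).1 hx1, ?_⟩
    rw [Subgroup.mem_centralizer_iff]
    intro s hs
    have hs' : h⁻¹ * s * h ∈ S' := by
      have := (Subgroup.mem_normalizer_iff.1 (inv_mem hh) s).1 hs
      simpa using this
    have h1 := (Subgroup.mem_centralizer_iff.1 hx2) _ hs'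
    calc s * (h * x * h⁻¹) = h * ((h⁻¹ * s * h) * x) * h⁻¹ := by group
      _ = h * (x * (h⁻¹ * s * h)) * h⁻¹ := by rw [h1]
      _ = _ := by group
  let φ : Nn → (ZS →* ZS) := fun h =>
    { toFun := fun x => ⟨h * x * h⁻¹, hZSn h h.2 x x.2⟩
      map_one' := Subtype.ext (by simp)
      map_mul' := fun x y => Subtype.ext (by simp [mul_assoc]) }
  let f : Nn → ZS := fun g => ⟨g * e₀ * g⁻¹, hEZ _ (hconjE g g.2).1⟩
  let F : (Nn ⧸ (S'.subgroupOf Nn)) → ZS := fun c => Quotient.liftOn' c f (by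
    intro a b hab
    rw [QuotientGroup.leftRel_apply, Subgroup.mem_subgroupOf] at hab
    apply Subtype.ext
    have h1 := (hcen he₀E.1 he₀E.2).1 _ hab
    have h2 : (b : G) = a * ((a⁻¹ * b : Nn) : G) := by simp
    change (a : G) * e₀ * (a : G)⁻¹ = (b : G) * e₀ * (b : G)⁻¹
    rw [h2]
    set s : G := ((a⁻¹ * b : Nn) : G) with hs
    calc (a : G) * e₀ * (a : G)⁻¹ = a * (e₀ * s) * s⁻¹ * (a : G)⁻¹ := by group
      _ = a * (s * e₀) * s⁻¹ * (a : G)⁻¹ := by rw [h1]
      _ = _ := by group)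
  have hFmk : ∀ g : Nn, F (QuotientGroup.mk g) = f g := fun g => rfl
  let _ : Fintype (Nn ⧸ (S'.subgroupOf Nn)) := Fintype.ofFinite _
  have hodd : Odd (Fintype.card (Nn ⧸ (S'.subgroupOf Nn))) := by
    rw [← Nat.card_eq_fintype_card]
    change Odd (S'.relIndex Nn)
    have h1 : S'.relIndex Nn * Nn.index = S'.index :=
      Subgroup.relIndex_mul_index Subgroup.le_normalizer
    have h2 : ¬ 2 ∣ S'.index := S.not_dvd_index
    rw [← Nat.not_even_iff_odd, even_iff_two_dvd]
    intro h3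
    exact h2 (h1 ▸ Dvd.dvd.mul_right h3 _)
  let z' : ZS := ⟨z, hEZ z ⟨hzS, hzz⟩⟩
  have hprops := prod_family_props F z' (R.subgroupOf ZS) hodd (Subtype.ext hzz)
    (fun h => hzR (Subgroup.mem_subgroupOf.1 h))
    (by
      intro c
      induction c using QuotientGroup.induction_on with
      | H g =>
        rw [hFmk, Subgroup.mem_subgroupOf]
        obtain ⟨r, hr, hgr⟩ := (hconjE g g.2).2
        change z⁻¹ * ((g : G) * e₀ * (g : G)⁻¹) ∈ R
        rw [hgr]; simpa using hr)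
    (by
      intro c
      induction c using QuotientGroup.induction_on with
      | H g =>
        rw [hFmk]
        exact Subtype.ext (hconjE g g.2).1.2)
  have hinv : ∀ h : Nn, φ h (∏ c, F c) = ∏ c, F c := by
    intro h
    rw [map_prod]
    rw [← Equiv.prod_comp (MulAction.toPerm h) F]
    apply Finset.prod_congr rfl
    intro c _
    induction c using QuotientGroup.induction_on with
    | H g =>
      change φ h (f g) = f (h * g)
      apply Subtype.ext
      change (h : G) * ((g : G) * e₀ * (g : G)⁻¹) * (h : G)⁻¹ = ((h * g : Nn) : G) * e₀ * ((h * g : Nn) : G)⁻¹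
      simp [mul_assoc]
  set es : ZS := ∏ c, F c with hes
  refine ⟨(es : G), (Subgroup.mem_inf.1 es.2).1, ?_, ?_⟩
  · apply orderOf_eq_prime
    · rw [pow_two]
      exact congrArg Subtype.val hprops.2
    · intro h
      exact hprops.1 (Subtype.ext h)
  · intro g hg
    have hsq : (g * (es : G) * g⁻¹) * (g * (es : G) * g⁻¹) = 1 := by
      have h1 : (es : G) * (es : G) = 1 := congrArg Subtype.val hprops.2
      have : (g * (es : G) * g⁻¹) * (g * (es : G) * g⁻¹) = g * ((es : G) * (es : G)) * g⁻¹ := by group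
      rw [this, h1]; group
    have h1 : g * (es : G) * g⁻¹ ∈ Subgroup.centralizer (S' : Set G) :=
      (Subgroup.mem_inf.1 (hEZ _ ⟨hg, hsq⟩)).2
    obtain ⟨n, hn, hn'⟩ := S.conj_eq_normalizer_conj_of_mem_centralizer (es : G) g⁻¹
      (Subgroup.mem_inf.1 es.2).2 (by rw [inv_inv]; exact h1)
    rw [inv_inv] at hn'
    rw [hn']
    have h2 := congrArg Subtype.val (hinv ⟨n⁻¹, inv_mem hn⟩)
    change n⁻¹ * (es : G) * (n⁻¹)⁻¹ = (es : G) at h2
    rwa [inv_inv] at h2

/-- conditional (on the conclusion of the Z*-theorem) form of: a group with Sylow 2-subgroup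
`Q × R`, `Q` generalized quaternion, involutions of `R` central in `R`, is not simple. -/
theorem not_simple_of_zstar {G : Type*} [Group G] [Finite G]
    (hZ : ∀ (P : Sylow 2 G) (u : G), orderOf u = 2 → u ∈ P →
      (∀ g : G, g * u * g⁻¹ ∈ P → g * u * g⁻¹ = u) →
      ∃ N : Subgroup G, N.Normal ∧ Odd (Nat.card N) ∧ ∀ g : G, (u * g * u⁻¹ * g⁻¹) ∈ N)
    (S : Sylow 2 G) (Q R : Subgroup G) (hQR : Cfsg.IsInternalDirectProduct Q R (S : Subgroup G))
    (n : ℕ) (hn : 1 ≤ n) (eQ : ↥Q ≃* QuaternionGroup (2 ^ n))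
    (hR : ∀ r ∈ R, orderOf r = 2 → ∀ s ∈ R, r * s = s * r) :
    ¬ IsSimpleGroup G := by
  intro hsimple
  obtain ⟨z, t, t', hz1, hzz, htt, ht't', hnc, hq⟩ := quat_data n hn
  have key : ∀ a b : QuaternionGroup (2 ^ n),
      ((eQ.symm a : Q) : G) * ((eQ.symm b : Q) : G) = ((eQ.symm (a * b) : Q) : G) := by
    intro a b
    rw [map_mul]; rfl
  have inj : ∀ a b : QuaternionGroup (2 ^ n),
      ((eQ.symm a : Q) : G) = ((eQ.symm b : Q) : G) → a = b := by
    intro a b h
    exact eQ.symm.injective (Subtype.ext h)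
  have hone : ((eQ.symm 1 : Q) : G) = 1 := by rw [map_one]; rfl
  obtain ⟨e, heS, he2, hiso⟩ := exists_isolated_involution S Q R hQR
    ((eQ.symm z : Q) : G) ((eQ.symm t : Q) : G) ((eQ.symm t' : Q) : G)
    (eQ.symm z).2 (eQ.symm t).2 (eQ.symm t').2
    (by intro h; exact hz1 (inj _ _ (h.trans hone.symm)))
    (by rw [key, hzz, hone])
    (by rw [key, htt])
    (by rw [key, ht't'])
    (by rw [key, key]; intro h; exact hnc (inj _ _ h))
    (by
      intro q hqQ hqq
      have h1 : eQ ⟨q, hqQ⟩ * eQ ⟨q, hqQ⟩ = 1 := by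
        rw [← map_mul]
        have : (⟨q, hqQ⟩ : Q) * ⟨q, hqQ⟩ = 1 := Subtype.ext hqq
        rw [this, map_one]
      rcases hq _ h1 with h2 | h2
      · left
        have h3 : (⟨q, hqQ⟩ : Q) = 1 := by
          apply eQ.injective; rw [h2, map_one]
        exact congrArg Subtype.val h3
      · right
        rw [← h2, MulEquiv.symm_apply_apply])
    hR
  obtain ⟨N, hN, hodd, hcomm⟩ := hZ S e he2 heS hiso
  have he1 : e ≠ 1 := by
    intro h; rw [h, orderOf_one] at he2; omega
  rcases hN.eq_bot_or_eq_top with h | h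
  · -- e is central
    have hec : e ∈ Subgroup.center G := by
      rw [Subgroup.mem_center_iff]
      intro g
      have h1 := hcomm g
      rw [h, Subgroup.mem_bot] at h1
      calc g * e = (e * g * e⁻¹ * g⁻¹)⁻¹ * (e * g) := by group
        _ = e * g := by rw [h1]; simp
    rcases (inferInstance : (Subgroup.center G).Normal).eq_bot_or_eq_top with h2 | h2
    · rw [h2, Subgroup.mem_bot] at hec
      exact he1 hec
    · apply hnc
      apply inj
      rw [← key, ← key]
      have h3 : ((eQ.symm t' : Q) : G) ∈ Subgroup.center G := by rw [h2]; exact Subgroup.mem_top _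
      exact (Subgroup.mem_center_iff.1 h3 _)
  · -- N = ⊤ is odd, but e has order 2
    have h1 : 2 ∣ Nat.card G := he2 ▸ orderOf_dvd_natCard e
    rw [h, Nat.card_congr (Subgroup.topEquiv (G := G)).toEquiv] at hodd
    exact (Nat.not_even_iff_odd.2 hodd) (even_iff_two_dvd.2 h1)

end Cfsg.Agent.Lib.Helper93
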