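import Cfsg.Agent.Lib.Helper93.ThCnt

/-!
# From the order statistics of a finite group to the number of solutions of `x ^ d = 1`
-/

set_option autoImplicit false

namespace Cfsg.Agent.Lib.Helper93.Th

theorem cnt_of_ordc (X : Type) [Group X] [Finite X] (ol : Finset ℕ) (N : ℕ → ℕ)
    (h : ∀ o ∈ ol, Nat.card {x : X // orderOf x = o} = N o)
    (hs : ∑ o ∈ ol, N o = Nat.card X) (d : ℕ) :
    Nat.card {x : X // x ^ d = 1} = ∑ o ∈ ol, if o ∣ d then N o else 0 := by
  classical
  have := Fintype.ofFinite X
  have h' : ∀ o ∈ ol, (Finset.univ.filter fun x : X => orderOf x = o).card = N o := by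
    intro o ho
    rw [← h o ho, Nat.card_eq_fintype_card, Fintype.card_subtype]
  have hall : ∀ x : X, orderOf x ∈ ol := by
    have h1 : (Finset.univ.filter fun x : X => orderOf x ∈ ol).card = Fintype.card X := by
      have hm : ((Finset.univ.filter fun x : X => orderOf x ∈ ol : Finset X) : Set X).MapsTo
          orderOf (ol : Set ℕ) := fun x hx => (Finset.mem_filter.1 hx).2
      rw [Finset.card_eq_sum_card_fiberwise hm, ← Nat.card_eq_fintype_card, ← hs]
      apply Finset.sum_congr rfl
      intro o ho
      rw [← h' o ho]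
      congr 1
      ext x
      simp only [Finset.mem_filter, Finset.mem_univ, true_and]
      constructor
      · exact fun hx => hx.2
      · exact fun hx => ⟨hx ▸ ho, hx⟩
    have h2 := Finset.eq_univ_of_card _ h1
    intro x
    have : x ∈ (Finset.univ.filter fun x : X => orderOf x ∈ ol) := by
      rw [h2]; exact Finset.mem_univ x
    exact (Finset.mem_filter.1 this).2
  have hm : ((Finset.univ.filter fun x : X => x ^ d = 1 : Finset X) : Set X).MapsTo
      orderOf (ol : Set ℕ) := fun x _ => hall x
  rw [Nat.card_eq_fintype_card, Fintype.card_subtype, Finset.card_eq_sum_card_fiberwise hm]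
  apply Finset.sum_congr rfl
  intro o ho
  split_ifs with hd
  · rw [← h' o ho]
    congr 1
    ext x
    simp only [Finset.mem_filter, Finset.mem_univ, true_and]
    constructor
    · exact fun hx => hx.2
    · exact fun hx => ⟨orderOf_dvd_iff_pow_eq_one.1 (hx ▸ hd), hx⟩
  · rw [Finset.card_eq_zero]
    ext x
    simp only [Finset.mem_filter, Finset.mem_univ, true_and, Finset.notMem_empty, iff_false]
    rintro ⟨h1, h2⟩
    exact hd (h2 ▸ orderOf_dvd_of_pow_eq_one h1)

/-- decidable form of the order statistics. -/
theorem card_orderOf_eq (X : Type) [Group X] [Fintype X] [DecidableEq X] (o : ℕ) (ho : 0 < o) :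
    Nat.card {x : X // orderOf x = o} =
      Fintype.card {x : X // x ^ o = 1 ∧ ∀ m, m < o → 0 < m → x ^ m ≠ 1} := by
  rw [← Nat.card_eq_fintype_card]
  exact Nat.card_congr (Equiv.subtypeEquivRight fun x => orderOf_eq_iff ho)

end Cfsg.Agent.Lib.Helper93.Th
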