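import Cfsg.Agent.Lib.Helper93.ThDiag
import Cfsg.Agent.Lib.Helper93.ThOrd

/-!
# The group `AΓL(1, 8) = 2 ^ 3 : 7 : 3` and its solution-counting function
-/

set_option autoImplicit false

namespace Cfsg.Agent.Lib.Helper93.Th

open Cfsg.Agent.Lib.Helper93 (SD)

instance sdDecEq {M K : Type} [DecidableEq M] [DecidableEq K] : DecidableEq (SD M K) :=
  fun a b => decidable_of_iff (a.m = b.m ∧ a.k = b.k) (by rw [SD.ext_iff])

instance sdFintype {M K : Type} [Fintype M] [Fintype K] : Fintype (SD M K) :=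
  Fintype.ofEquiv (M × K) ⟨fun p => ⟨p.1, p.2⟩, fun a => (a.m, a.k), fun _ => rfl, fun _ => rfl⟩

abbrev C3 := Multiplicative (ZMod 3)

@[reducible] def actK : DistribMulAction C3 (ZMod 7) := act 3 (2 : ZMod 7) (by decide)

attribute [local instance] actK

abbrev K21 := SD (ZMod 7) C3
abbrev V8 := ZMod 2 × ZMod 2 × ZMod 2

/-- multiplication by a root `x` of `x ^ 3 + x + 1` on `𝔽₈`. -/
def zz (v : V8) : V8 := (v.2.2, v.1 + v.2.2, v.2.1)
/-- the Frobenius map of `𝔽₈`. -/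
def fr (v : V8) : V8 := (v.1, v.2.2, v.2.1 + v.2.2)

def sm (k : K21) (v : V8) : V8 := zz^[k.m.val] (fr^[(Multiplicative.toAdd k.k).val] v)

theorem sm_mul : ∀ (a a' : ZMod 7) (c c' : C3) (v : V8),
    sm ((⟨a, c⟩ : K21) * ⟨a', c'⟩) v = sm ⟨a, c⟩ (sm ⟨a', c'⟩ v) := by decide +kernel

theorem sm_add : ∀ (a : ZMod 7) (c : C3) (v w : V8),
    sm ⟨a, c⟩ (v + w) = sm ⟨a, c⟩ v + sm ⟨a, c⟩ w := by decide +kernel

theorem sm_zero : ∀ (a : ZMod 7) (c : C3), sm ⟨a, c⟩ 0 = 0 := by decide +kernel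

@[reducible] def actV : DistribMulAction K21 V8 where
  smul := sm
  one_smul _ := rfl
  mul_smul k k' v := sm_mul k.m k'.m k.k k'.k v
  smul_zero k := sm_zero k.m k.k
  smul_add k v w := sm_add k.m k.k v w

attribute [local instance] actV

abbrev X168 := SD V8 K21

instance decX168 : DecidableEq X168 := sdDecEq

theorem card_X168 : Fintype.card X168 = 168 := by decide +kernel

theorem o1 : Fintype.card {x : X168 // x ^ 1 = 1 ∧ ∀ m, m < 1 → 0 < m → x ^ m ≠ 1} = 1 := by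
  decide +kernel
theorem o2 : Fintype.card {x : X168 // x ^ 2 = 1 ∧ ∀ m, m < 2 → 0 < m → x ^ m ≠ 1} = 7 := by
  decide +kernel
theorem o3 : Fintype.card {x : X168 // x ^ 3 = 1 ∧ ∀ m, m < 3 → 0 < m → x ^ m ≠ 1} = 56 := by
  decide +kernel
theorem o6 : Fintype.card {x : X168 // x ^ 6 = 1 ∧ ∀ m, m < 6 → 0 < m → x ^ m ≠ 1} = 56 := by
  decide +kernel
theorem o7 : Fintype.card {x : X168 // x ^ 7 = 1 ∧ ∀ m, m < 7 → 0 < m → x ^ m ≠ 1} = 48 := by
  decide +kernel

/-- **Rung C**: the solution-counting function of `AΓL(1, 8)`. -/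
theorem exists_AGammaL18 : ∃ (X : Type) (_ : Group X), Finite X ∧ Group.IsSolvable X ∧
    ∀ d : ℕ, Nat.card {x : X // x ^ d = 1} =
      (if 2 ∣ d then 8 else 1) + (if 7 ∣ d then 48 else 0) +
        (if 3 ∣ d then (if 2 ∣ d then 112 else 56) else 0) := by
  refine ⟨X168, inferInstance, inferInstance, ?_, fun d => ?_⟩
  · have : Group.IsSolvable K21 := sd_solvable
    exact sd_solvable
  · rw [cnt_of_ordc X168 {1, 2, 3, 6, 7}
      (fun o => if o = 1 then 1 else if o = 2 then 7 else if o = 3 then 56 else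
        if o = 6 then 56 else 48) ?_ ?_ d]
    · have h6 : 6 ∣ d ↔ 2 ∣ d ∧ 3 ∣ d := by omega
      by_cases h2 : 2 ∣ d <;> by_cases h3 : 3 ∣ d <;> by_cases h7 : 7 ∣ d <;>
        simp [h6, h2, h3, h7]
    · intro o ho
      simp only [Finset.mem_insert, Finset.mem_singleton] at ho
      rcases ho with rfl | rfl | rfl | rfl | rfl
      · rw [card_orderOf_eq _ _ (by norm_num), o1]; rfl
      · rw [card_orderOf_eq _ _ (by norm_num), o2]; rfl
      · rw [card_orderOf_eq _ _ (by norm_num), o3]; rfl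
      · rw [card_orderOf_eq _ _ (by norm_num), o6]; rfl
      · rw [card_orderOf_eq _ _ (by norm_num), o7]; rfl
    · rw [Nat.card_eq_fintype_card, card_X168]; rfl

end Cfsg.Agent.Lib.Helper93.Th
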