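import Mathlib

/-!
# Counting the solutions of `x ^ d = 1` in finite groups, and order statistics
-/

set_option autoImplicit false

namespace Cfsg.Agent.Lib.Helper93.Th

/-- number of solutions of `x ^ d = 1`. -/
noncomputable def cnt (X : Type) [Group X] (d : ℕ) : ℕ := Nat.card {x : X // x ^ d = 1}

theorem cnt_prod (X Y : Type) [Group X] [Group Y] (d : ℕ) :
    cnt (X × Y) d = cnt X d * cnt Y d := by
  unfold cnt
  rw [← Nat.card_prod]
  apply Nat.card_congr
  exact
    { toFun := fun x => (⟨x.1.1, congrArg Prod.fst x.2⟩, ⟨x.1.2, congrArg Prod.snd x.2⟩)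
      invFun := fun p => ⟨(p.1.1, p.2.1), Prod.ext p.1.2 p.2.2⟩
      left_inv := fun _ => rfl
      right_inv := fun _ => rfl }

/-- `F` is the solution-counting function of a finite solvable group. -/
def RealS (F : ℕ → ℕ) : Prop :=
  ∃ (X : Type) (_ : Group X), Finite X ∧ Group.IsSolvable X ∧
    ∀ d : ℕ, Nat.card {x : X // x ^ d = 1} = F d

/-- `F` is the solution-counting function of a finite non-solvable group. -/
def RealN (F : ℕ → ℕ) : Prop :=
  ∃ (X : Type) (_ : Group X), Finite X ∧ ¬ Group.IsSolvable X ∧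
    ∀ d : ℕ, Nat.card {x : X // x ^ d = 1} = F d

theorem RealS.one : RealS (fun _ => 1) := by
  refine ⟨PUnit, inferInstance, inferInstance, inferInstance, fun d => ?_⟩
  have : Unique {x : PUnit // x ^ d = 1} := ⟨⟨⟨1, one_pow d⟩⟩, fun _ => Subsingleton.elim _ _⟩
  exact Nat.card_unique

theorem RealS.mul {F F' : ℕ → ℕ} (h : RealS F) (h' : RealS F') : RealS (fun d => F d * F' d) := by
  obtain ⟨X, _, _, _, hX⟩ := h
  obtain ⟨Y, _, _, _, hY⟩ := h'
  refine ⟨X × Y, inferInstance, inferInstance, inferInstance, fun d => ?_⟩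
  have := cnt_prod X Y d
  unfold cnt at this
  rw [this, hX, hY]

theorem RealS.pow {F : ℕ → ℕ} (h : RealS F) (e : ℕ) : RealS (fun d => F d ^ e) := by
  induction e with
  | zero => simpa using RealS.one
  | succ e ih =>
    have := ih.mul h
    simpa [pow_succ] using this

theorem RealS.congr {F F' : ℕ → ℕ} (h : RealS F) (e : ∀ d, F d = F' d) : RealS F' := by
  have : F = F' := funext e
  rwa [← this]

theorem RealN.mul {F F' : ℕ → ℕ} (h : RealN F) (h' : RealS F') : RealN (fun d => F d * F' d) := by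
  obtain ⟨X, _, _, hn, hX⟩ := h
  obtain ⟨Y, _, _, _, hY⟩ := h'
  refine ⟨X × Y, inferInstance, inferInstance, ?_, fun d => ?_⟩
  · intro hs
    exact hn (Group.isSolvable_of_isSolvable_injective (f := MonoidHom.inl X Y)
        (fun a b hab => congrArg Prod.fst hab))
  · have := cnt_prod X Y d
    unfold cnt at this
    rw [this, hX, hY]

theorem RealN.pow_succ {F : ℕ → ℕ} (h : RealN F) (e : ℕ) : RealN (fun d => F d ^ (e + 1)) := by
  obtain ⟨X, _, _, hn, hX⟩ := h
  induction e with
  | zero => exact ⟨X, _, ‹_›, hn, by simpa using hX⟩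
  | succ e ih =>
    obtain ⟨Y, _, _, _, hY⟩ := ih
    refine ⟨X × Y, inferInstance, inferInstance, ?_, fun d => ?_⟩
    · intro hs
      exact hn (Group.isSolvable_of_isSolvable_injective (f := MonoidHom.inl X Y)
        (fun a b hab => congrArg Prod.fst hab))
    · have := cnt_prod X Y d
      unfold cnt at this
      rw [this, hX, hY]
      show F d * F d ^ (e + 1) = F d ^ (e + 1 + 1)
      rw [_root_.pow_succ (F d) (e + 1), mul_comm]

/-- the number of elements of order `n`. -/
noncomputable def ordc (X : Type) [Group X] (n : ℕ) : ℕ := Nat.card {x : X // orderOf x = n}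

theorem cnt_eq_sum (X : Type) [Group X] [Finite X] {n : ℕ} (hn : n ≠ 0) :
    cnt X n = ∑ k ∈ n.divisors, ordc X k := by
  classical
  have := Fintype.ofFinite X
  have h := sum_card_orderOf_eq_card_pow_eq_one (G := X) hn
  unfold cnt ordc
  rw [Nat.card_eq_fintype_card, Fintype.card_subtype, ← h]
  apply Finset.sum_congr rfl
  intro k _
  rw [Nat.card_eq_fintype_card, Fintype.card_subtype]

theorem ordc_eq_of_cnt_eq (G H : Type) [Group G] [Group H] [Finite G] [Finite H]
    (h : ∀ d, cnt G d = cnt H d) (n : ℕ) : ordc G n = ordc H n := by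
  induction n using Nat.strong_induction_on with
  | _ n ih =>
    rcases Nat.eq_zero_or_pos n with rfl | hn
    · have e1 : IsEmpty {x : G // orderOf x = 0} :=
        ⟨fun x => (orderOf_pos x.1).ne' x.2⟩
      have e2 : IsEmpty {x : H // orderOf x = 0} :=
        ⟨fun x => (orderOf_pos x.1).ne' x.2⟩
      unfold ordc
      rw [Nat.card_of_isEmpty, Nat.card_of_isEmpty]
    · have h1 := cnt_eq_sum G hn.ne'
      have h2 := cnt_eq_sum H hn.ne'
      rw [← Nat.cons_self_properDivisors hn.ne', Finset.sum_cons] at h1 h2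
      have h3 : ∑ k ∈ n.properDivisors, ordc G k = ∑ k ∈ n.properDivisors, ordc H k :=
        Finset.sum_congr rfl fun k hk => ih k (Nat.mem_properDivisors.1 hk).2
      have := h n
      omega

theorem cnt_gcd (X : Type) [Group X] [Finite X] (E : ℕ) (h : cnt X E = cnt X 0) (d : ℕ) :
    cnt X d = cnt X (Nat.gcd d E) := by
  have hall : ∀ x : X, x ^ E = 1 := by
    have h0 : cnt X 0 = Nat.card X := by
      unfold cnt
      exact Nat.card_congr (Equiv.subtypeUnivEquiv fun x => pow_zero x)
    rw [h0] at h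
    unfold cnt at h
    by_contra hc
    push Not at hc
    obtain ⟨x, hx⟩ := hc
    have hlt : Nat.card {x : X // x ^ E = 1} < Nat.card X := by
      apply Finite.card_subtype_lt (x := x) hx
    omega
  unfold cnt
  apply Nat.card_congr
  apply Equiv.subtypeEquivRight
  intro x
  constructor
  · intro hx
    exact pow_gcd_eq_one.2 ⟨hx, hall x⟩
  · intro hx
    obtain ⟨c, hc⟩ := Nat.gcd_dvd_left d E
    rw [hc, pow_mul, hx, one_pow]

/-- the final criterion. -/
theorem same_order_type (G H : Type) [Group G] [Group H] [Finite G] [Finite H] (E : ℕ) (hE : E ≠ 0)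
    (FG FH : ℕ → ℕ) (hG : ∀ d, Nat.card {x : G // x ^ d = 1} = FG d)
    (hH : ∀ d, Nat.card {x : H // x ^ d = 1} = FH d)
    (h0 : FG E = FG 0) (h0' : FH E = FH 0) (he : ∀ e ∈ E.divisors, FG e = FH e) (n : ℕ) :
    Nat.card {g : G // orderOf g = n} = Nat.card {h : H // orderOf h = n} := by
  apply ordc_eq_of_cnt_eq G H
  intro d
  rw [cnt_gcd G E (by unfold cnt; rw [hG, hG, h0]), cnt_gcd H E (by unfold cnt; rw [hH, hH, h0'])]
  unfold cnt
  rw [hG, hH]
  exact he _ (Nat.mem_divisors.2 ⟨Nat.gcd_dvd_right d E, hE⟩)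

end Cfsg.Agent.Lib.Helper93.Th
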