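import Cfsg.Agent.Lib.Helper93.ThDiag

set_option autoImplicit false

namespace Cfsg.Agent.Lib.Helper93.Th

def fC (d : ℕ) : ℕ :=
  (if 2 ∣ d then 8 else 1) + (if 7 ∣ d then 48 else 0) +
    (if 3 ∣ d then (if 2 ∣ d then 112 else 56) else 0)

def fD (d : ℕ) : ℕ :=
  1 + (if 2 ∣ d then 21 else 0) + (if 3 ∣ d then 56 else 0) + (if 4 ∣ d then 42 else 0) +
    (if 7 ∣ d then 48 else 0)

def dataG : List (ℕ × List (ℕ × ℕ) × ℕ) :=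
   [(2, [], 72),
    (7, [], 2),
    (2, [(3, 2), (4, 3)], 12),
    (4, [(7, 6)], 18),
    (4, [(3, 2), (3, 2)], 36),
    (2, [(7, 6), (3, 2)], 12),
    (2, [(7, 6), (4, 3)], 9),
    (12, [(7, 3)], 78),
    (4, [(3, 2), (3, 2), (3, 2)], 12),
    (2, [(7, 6), (3, 2), (3, 2)], 42),
    (6, [(7, 3), (4, 3)], 9),
    (4, [(7, 6), (7, 6)], 32),
    (6, [(7, 3), (7, 6)], 28),
    (2, [(7, 6), (3, 2), (3, 2), (3, 2)], 6),
    (6, [(7, 3), (7, 3), (7, 3)], 6),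
    (6, [(7, 3), (4, 3), (4, 3), (4, 3)], 3),
    (2, [(7, 6), (7, 6), (7, 6), (4, 3)], 3)]

def dataH : List (ℕ × List (ℕ × ℕ) × ℕ) :=
   [(3, [], 6),
    (4, [], 84),
    (2, [(3, 2)], 6),
    (2, [(7, 6)], 24),
    (2, [(3, 2), (3, 2)], 36),
    (3, [(7, 2)], 8),
    (6, [(7, 3)], 78),
    (2, [(3, 2), (3, 2), (3, 2)], 12),
    (4, [(7, 6), (3, 2)], 6),
    (2, [(7, 6), (7, 6)], 22),
    (2, [(7, 6), (3, 2), (4, 3)], 6),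
    (4, [(7, 6), (3, 2), (3, 2)], 42),
    (2, [(7, 6), (7, 6), (4, 3)], 6),
    (12, [(7, 3), (7, 6)], 32),
    (4, [(7, 6), (3, 2), (3, 2), (3, 2)], 6),
    (2, [(7, 6), (4, 3), (4, 3), (4, 3)], 9),
    (4, [(7, 6), (7, 6), (7, 6)], 3),
    (12, [(7, 3), (7, 3), (7, 3)], 3),
    (6, [(7, 3), (7, 3), (7, 3), (4, 3)], 3)]

theorem okG : ∀ t ∈ dataG, 0 < t.1 ∧ okl t.1 t.2.1 := by decide
theorem okH : ∀ t ∈ dataH, 0 < t.1 ∧ okl t.1 t.2.1 := by decide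

def FG (d : ℕ) : ℕ := fC d ^ 6 * prodF dataG d
def FH (d : ℕ) : ℕ := fD d ^ (5 + 1) * prodF dataH d

theorem FG0 : FG 84 = FG 0 := by decide +kernel
theorem FH0 : FH 84 = FH 0 := by decide +kernel
theorem FGH : ∀ e ∈ Nat.divisors 84, FG e = FH e := by decide +kernel

end Cfsg.Agent.Lib.Helper93.Th
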