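import Cfsg.Agent.Lib.Helper93.SemiSpec
import Cfsg.Agent.Lib.Helper93.ThCnt

/-!
# Counting solutions of `x ^ d = 1` in split extensions, and the diagonal metacyclic family
-/

set_option autoImplicit false
set_option linter.style.haveILetI false

namespace Cfsg.Agent.Lib.Helper93.Th

open Cfsg.Agent.Lib.Helper93 (SD)
open Cfsg.Agent.Lib.Helper93.SD (nrm pow_eq proj ker_comm)

section general

variable {M K : Type} [AddCommGroup M] [Group K] [DistribMulAction K M]

open scoped Classical in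
theorem card_pow_eq_one [Finite M] [Fintype K] (d : ℕ) :
    Nat.card {x : SD M K // x ^ d = 1} =
      ∑ k : K, if k ^ d = 1 then Nat.card {v : M // nrm k d v = 0} else 0 := by
  have e : {x : SD M K // x ^ d = 1} ≃ Σ k : K, {v : M // nrm k d v = 0 ∧ k ^ d = 1} :=
    { toFun := fun x => ⟨x.1.k, x.1.m, by
        have h := x.2
        rw [pow_eq] at h
        exact ⟨congrArg SD.m h, congrArg SD.k h⟩⟩
      invFun := fun p => ⟨⟨p.2.1, p.1⟩, by
        rw [pow_eq]
        exact SD.ext p.2.2.1 p.2.2.2⟩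
      left_inv := fun _ => rfl
      right_inv := fun _ => rfl }
  rw [Nat.card_congr e, Nat.card_sigma]
  apply Finset.sum_congr rfl
  intro k _
  split_ifs with h
  · exact Nat.card_congr (Equiv.subtypeEquivRight fun v => by simp [h])
  · have : IsEmpty {v : M // nrm k d v = 0 ∧ k ^ d = 1} := ⟨fun v => h v.2.2⟩
    exact Nat.card_of_isEmpty

theorem sd_solvable [Group.IsSolvable K] : Group.IsSolvable (SD M K) := by
  have hs : Group.IsSolvable ↥(proj : SD M K →* K).ker := Group.isSolvable_of_comm ker_comm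
  exact Group.isSolvable_of_ker_le_range (proj : SD M K →* K).ker.subtype (proj : SD M K →* K)
    (by simp)

end general

/-- the action of `ℤ / m` on a ring through the powers of an element `U` with `U ^ m = 1`. -/
@[reducible] def act (m : ℕ) [NeZero m] {R : Type} [CommRing R] (U : R) (hU : U ^ m = 1) :
    DistribMulAction (Multiplicative (ZMod m)) R where
  smul c r := U ^ (Multiplicative.toAdd c).val * r
  one_smul r := by
    show U ^ (Multiplicative.toAdd (1 : Multiplicative (ZMod m))).val * r = r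
    simp
  mul_smul c c' r := by
    show U ^ (Multiplicative.toAdd (c * c')).val * r =
      U ^ (Multiplicative.toAdd c).val * (U ^ (Multiplicative.toAdd c').val * r)
    rw [toAdd_mul, ZMod.val_add, ← pow_eq_pow_mod _ hU, pow_add, mul_assoc]
  smul_zero c := mul_zero _
  smul_add c a b := mul_add _ _ _

theorem act_nrm (m : ℕ) [NeZero m] {R : Type} [CommRing R] (U : R) (hU : U ^ m = 1)
    (c : Multiplicative (ZMod m)) (d : ℕ) (r : R) :
    letI := act m U hU
    nrm c d r = (∑ i ∈ Finset.range d, (U ^ (Multiplicative.toAdd c).val) ^ i) * r := by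
  letI := act m U hU
  have h1 : ∀ r : R, c • r = U ^ (Multiplicative.toAdd c).val * r := fun _ => rfl
  have h2 : ∀ (i : ℕ) (r : R), c ^ i • r = (U ^ (Multiplicative.toAdd c).val) ^ i * r := by
    intro i
    induction i with
    | zero => intro r; simp
    | succ i ih => intro r; rw [pow_succ, mul_smul, ih, h1, pow_succ, mul_assoc]
  unfold nrm
  rw [Finset.sum_mul]
  exact Finset.sum_congr rfl fun i _ => h2 i r

theorem sum_zmod (m : ℕ) [NeZero m] (g : ℕ → ℕ) :
    ∑ k : ZMod m, g k.val = ∑ j ∈ Finset.range m, g j := by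
  cases m with
  | zero => exact (NeZero.ne 0 rfl).elim
  | succ m => exact Fin.sum_univ_eq_sum_range g (m + 1)

theorem pow_eq_one_iff_dvd (m : ℕ) [NeZero m] (c : Multiplicative (ZMod m)) (d : ℕ) :
    c ^ d = 1 ↔ m ∣ d * (Multiplicative.toAdd c).val := by
  rw [← ZMod.natCast_eq_zero_iff, Nat.cast_mul, ZMod.natCast_zmod_val]
  constructor
  · intro h
    have := congrArg Multiplicative.toAdd h
    simpa using this
  · intro h
    apply Multiplicative.toAdd.injective
    simpa using h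

/-- `κ j d` is the size of the kernel of `1 + U ^ j + ⋯ + U ^ (j (d - 1))` on some finite ring `R`
with `U ^ m = 1`. -/
def Mdl (m : ℕ) (κ : ℕ → ℕ → ℕ) : Prop :=
  ∃ (R : Type) (_ : CommRing R) (_ : Finite R) (U : R), U ^ m = 1 ∧
    ∀ j d : ℕ, Nat.card {r : R // (∑ i ∈ Finset.range d, (U ^ j) ^ i) * r = 0} = κ j d

theorem Mdl.real {m : ℕ} {κ : ℕ → ℕ → ℕ} (h : Mdl m κ) (hm : 0 < m) :
    RealS (fun d => ∑ j ∈ Finset.range m, if m ∣ d * j then κ j d else 0) := by
  obtain ⟨R, _, _, U, hU, hκ⟩ := h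
  haveI : NeZero m := ⟨hm.ne'⟩
  letI := act m U hU
  refine ⟨SD R (Multiplicative (ZMod m)), inferInstance, inferInstance, sd_solvable, fun d => ?_⟩
  rw [card_pow_eq_one]
  show _ = ∑ j ∈ Finset.range m, if m ∣ d * j then κ j d else 0
  rw [← sum_zmod m (fun j => if m ∣ d * j then κ j d else 0)]
  apply Fintype.sum_equiv Multiplicative.toAdd
  intro c
  have e1 := pow_eq_one_iff_dvd m c d
  have e2 : Nat.card {v : R // nrm c d v = 0} = κ (Multiplicative.toAdd c).val d := by
    rw [← hκ]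
    exact Nat.card_congr (Equiv.subtypeEquivRight fun v => by rw [act_nrm m U hU c d v])
  rw [e2]
  by_cases hc : c ^ d = 1
  · rw [if_pos hc, if_pos (e1.1 hc)]
  · rw [if_neg hc, if_neg (fun h => hc (e1.2 h))]

theorem Mdl.unit (m : ℕ) : Mdl m (fun _ _ => 1) := by
  refine ⟨PUnit, inferInstance, inferInstance, 0, Subsingleton.elim _ _, fun j d => ?_⟩
  have : Unique {r : PUnit // (∑ i ∈ Finset.range d, ((0 : PUnit) ^ j) ^ i) * r = 0} :=
    ⟨⟨⟨0, Subsingleton.elim _ _⟩⟩, fun _ => Subsingleton.elim _ _⟩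
  exact Nat.card_unique

/-- `1 + a + ⋯ + a ^ (d - 1)`. -/
def geo (a : ℕ) : ℕ → ℕ
  | 0 => 0
  | d + 1 => geo a d + a ^ d

theorem geo_cast {R : Type} [CommRing R] (a d : ℕ) :
    ((geo a d : ℕ) : R) = ∑ i ∈ Finset.range d, (a : R) ^ i := by
  induction d with
  | zero => simp [geo]
  | succ d ih => rw [geo, Nat.cast_add, ih, Finset.sum_range_succ, Nat.cast_pow]

theorem card_ker_zmod (n : ℕ) (hn : n = 2 ∨ n = 3 ∨ n = 4 ∨ n = 7) (N : ℕ) :
    Nat.card {r : ZMod n // (N : ZMod n) * r = 0} = Nat.gcd n N := by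
  have key : ∀ a : ZMod n, Nat.card {r : ZMod n // a * r = 0} = Nat.gcd n a.val := by
    rcases hn with rfl | rfl | rfl | rfl <;> intro a <;> rw [Nat.card_eq_fintype_card] <;>
      revert a <;> decide
  rw [key, ZMod.val_natCast, Nat.gcd_comm, ← Nat.gcd_rec]

theorem Mdl.cons {m : ℕ} {κ : ℕ → ℕ → ℕ} (h : Mdl m κ) (n u : ℕ)
    (hn : n = 2 ∨ n = 3 ∨ n = 4 ∨ n = 7) (hu : u ^ m % n = 1) :
    Mdl m (fun j d => Nat.gcd n (geo (u ^ j) d) * κ j d) := by
  obtain ⟨R, _, _, U, hU, hκ⟩ := h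
  have hn0 : NeZero n := ⟨by rcases hn with rfl | rfl | rfl | rfl <;> norm_num⟩
  have hn1 : 1 % n = 1 := by rcases hn with rfl | rfl | rfl | rfl <;> norm_num
  refine ⟨ZMod n × R, inferInstance, inferInstance, ((u : ZMod n), U), ?_, fun j d => ?_⟩
  · have h1 : ((u ^ m : ℕ) : ZMod n) = ((1 : ℕ) : ZMod n) :=
      (ZMod.natCast_eq_natCast_iff' _ _ _).2 (by rw [hu, hn1])
    rw [Nat.cast_pow, Nat.cast_one] at h1
    exact Prod.ext h1 hU
  · have e : (∑ i ∈ Finset.range d, (((u : ZMod n), U) ^ j) ^ i) =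
        (((geo (u ^ j) d : ℕ) : ZMod n), ∑ i ∈ Finset.range d, (U ^ j) ^ i) := by
      apply Prod.ext
      · rw [Prod.fst_sum, geo_cast]
        simp
      · rw [Prod.snd_sum]
        simp
    rw [e]
    show _ = Nat.gcd n (geo (u ^ j) d) * κ j d
    rw [← hκ j d, ← card_ker_zmod n hn, ← Nat.card_prod]
    apply Nat.card_congr
    exact
      { toFun := fun x => (⟨x.1.1, congrArg Prod.fst x.2⟩, ⟨x.1.2, congrArg Prod.snd x.2⟩)
        invFun := fun p => ⟨(p.1.1, p.2.1), Prod.ext p.1.2 p.2.2⟩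
        left_inv := fun _ => rfl
        right_inv := fun _ => rfl }

/-- the kernel sizes for a list of modules `(n, u)` (`ℤ / n` with the generator acting as `u`). -/
def kap : List (ℕ × ℕ) → ℕ → ℕ → ℕ
  | [], _, _ => 1
  | p :: l, j, d => Nat.gcd p.1 (geo (p.2 ^ j) d) * kap l j d

/-- admissible lists of modules. -/
def okl (m : ℕ) (l : List (ℕ × ℕ)) : Prop :=
  ∀ p ∈ l, (p.1 = 2 ∨ p.1 = 3 ∨ p.1 = 4 ∨ p.1 = 7) ∧ p.2 ^ m % p.1 = 1

instance (m : ℕ) (l : List (ℕ × ℕ)) : Decidable (okl m l) := by unfold okl; infer_instance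

theorem mdl_kap (m : ℕ) (l : List (ℕ × ℕ)) (h : okl m l) : Mdl m (kap l) := by
  induction l with
  | nil => exact Mdl.unit m
  | cons p l ih =>
    have h1 := h p (List.mem_cons_self)
    exact (ih fun q hq => h q (List.mem_cons_of_mem _ hq)).cons p.1 p.2 h1.1 h1.2

/-- a kernel-friendly sum. -/
def sumR : ℕ → (ℕ → ℕ) → ℕ
  | 0, _ => 0
  | n + 1, f => sumR n f + f n

theorem sumR_eq (n : ℕ) (f : ℕ → ℕ) : sumR n f = ∑ j ∈ Finset.range n, f j := by
  induction n with
  | zero => rfl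
  | succ n ih => rw [sumR, ih, Finset.sum_range_succ]

/-- the number of solutions of `x ^ d = 1` in `(⨁ ℤ / n) ⋊ ℤ / m`. -/
def fB (m : ℕ) (l : List (ℕ × ℕ)) (d : ℕ) : ℕ :=
  sumR m fun j => if m ∣ d * j then kap l j d else 0

theorem real_fB (m : ℕ) (l : List (ℕ × ℕ)) (hm : 0 < m) (h : okl m l) : RealS (fB m l) :=
  ((mdl_kap m l h).real hm).congr fun _ => (sumR_eq _ _).symm

/-- the counting function of a direct product of powers of such groups. -/
def prodF : List (ℕ × List (ℕ × ℕ) × ℕ) → ℕ → ℕ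
  | [], _ => 1
  | t :: L, d => fB t.1 t.2.1 d ^ t.2.2 * prodF L d

theorem real_prodF (L : List (ℕ × List (ℕ × ℕ) × ℕ)) (h : ∀ t ∈ L, 0 < t.1 ∧ okl t.1 t.2.1) :
    RealS (prodF L) := by
  induction L with
  | nil => exact RealS.one
  | cons t L ih =>
    have h1 := h t (List.mem_cons_self)
    exact ((real_fB t.1 t.2.1 h1.1 h1.2).pow t.2.2).mul
      (ih fun q hq => h q (List.mem_cons_of_mem _ hq))

end Cfsg.Agent.Lib.Helper93.Th
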