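import Cfsg.Agent.Lib.Helper93.ThOrd

/-!
# The automorphism group of the Fano plane (`L₂(7) ≅ GL₃(2)`) and its solution-counting function
-/

set_option autoImplicit false

namespace Cfsg.Agent.Lib.Helper93.Th

/-- the third point on the line through two distinct points of the Fano plane. -/
def third (a b : Fin 7) : Fin 7 := Fin.ofNat 7 (((a.val + 1) ^^^ (b.val + 1)) - 1)

/-- the automorphism group of the Fano plane. -/
def Fano : Subgroup (Equiv.Perm (Fin 7)) where
  carrier := {σ | ∀ a b, a ≠ b → σ (third a b) = third (σ a) (σ b)}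
  mul_mem' := by
    intro σ τ hσ hτ a b hab
    show σ (τ (third a b)) = third (σ (τ a)) (σ (τ b))
    rw [hτ a b hab, hσ _ _ (fun h => hab (τ.injective h))]
  one_mem' := fun _ _ _ => rfl
  inv_mem' := by
    intro σ hσ a b hab
    have h := hσ (σ⁻¹ a) (σ⁻¹ b) (fun h => hab (σ⁻¹.injective h))
    have e1 : σ (σ⁻¹ a) = a := by simp
    have e2 : σ (σ⁻¹ b) = b := by simp
    rw [e1, e2] at h
    rw [← h]
    simp

/-- membership is decidable. -/
@[reducible] def fanoDec : DecidablePred (· ∈ Fano) := fun σ =>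
  decidable_of_iff (∀ a b, a ≠ b → σ (third a b) = third (σ a) (σ b)) Iff.rfl

/-- a permutation from its code. -/
def mk (c : ℕ) : Equiv.Perm (Fin 7) :=
  Equiv.swap 0 (Fin.ofNat 7 c) * Equiv.swap 1 (Fin.ofNat 7 (c / 7)) *
    Equiv.swap 2 (Fin.ofNat 7 (c / 49)) * Equiv.swap 3 (Fin.ofNat 7 (c / 343)) *
    Equiv.swap 4 (Fin.ofNat 7 (c / 2401)) * Equiv.swap 5 (Fin.ofNat 7 (c / 16807))

def codes : List ℕ := [
    94773, 111923, 100261, 98203, 111587, 95123, 117075, 115017, 94885, 112035, 100373, 98315, 111993, 94843,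
    100331, 98273, 100485, 98427, 94997, 112147, 98385, 100443, 94955, 112105, 97175, 116726, 114668, 95803,
    113989, 99926, 97868, 112617, 97336, 114829, 116887, 95964, 116943, 96020, 97392, 114885, 114745, 97252,
    116803, 95880, 95936, 116859, 97308, 114801, 116391, 97526, 112275, 100613, 99577, 114326, 95461, 117413,
    117623, 99787, 114536, 95671, 95629, 114494, 99745, 117581, 114452, 95587, 99703, 117539, 99661, 117497,
    114410, 95545, 97289, 116840, 114782, 95917, 94923, 100411, 112073, 98353, 111786, 115216, 95322, 117274,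
    114397, 99648, 95532, 117484, 111758, 117246, 95294, 115188, 94811, 98241, 111961, 100299, 116799, 97248,
    114741, 95876, 112123, 98403, 94973, 100461, 95274, 117226, 111738, 115168, 99691, 114440, 95575, 117527,
    111955, 100293, 94805, 98235, 95351, 115245, 111815, 117303, 114896, 96031, 97403, 116954, 100315, 94827,
    111977, 98257, 117178, 95226, 111690, 115120, 117136, 111648, 95184, 115078, 100287, 111949, 94799, 98229,
    117598, 95646, 99762, 114511, 95990, 114855, 97362, 116913, 98307, 112027, 94877, 100365, 115072, 111642,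
    95178, 117130, 98223, 94793, 111943, 100281, 115135, 95241, 111705, 117193, 95689, 117641, 99805, 114554]

def FL : List (Equiv.Perm (Fin 7)) := codes.map mk

section
attribute [local instance] fanoDec

theorem codes_sound : (codes.all fun c => decide (mk c ∈ Fano)) = true := by decide +kernel

theorem codes_complete : ∀ a b c : Fin 7, a = b ∨ c = a ∨ c = b ∨ c = third a b ∨
    (codes.any fun k => decide (mk k 0 = a ∧ mk k 1 = b ∧ mk k 3 = c)) = true := by
  decide +kernel

end

theorem FL_sound : ∀ σ ∈ FL, σ ∈ Fano := by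
  intro σ hσ
  obtain ⟨c, hc, rfl⟩ := List.mem_map.1 hσ
  have := List.all_eq_true.1 codes_sound c hc
  exact @of_decide_eq_true _ (fanoDec _) this

theorem fano_ext {σ τ : Equiv.Perm (Fin 7)} (hσ : σ ∈ Fano) (hτ : τ ∈ Fano)
    (h0 : σ 0 = τ 0) (h1 : σ 1 = τ 1) (h3 : σ 3 = τ 3) : σ = τ := by
  have h2 : σ 2 = τ 2 := by
    have a := hσ 0 1 (by decide)
    have b := hτ 0 1 (by decide)
    rw [h0, h1, ← b] at a
    exact a
  have h4 : σ 4 = τ 4 := by
    have a := hσ 0 3 (by decide)
    have b := hτ 0 3 (by decide)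
    rw [h0, h3, ← b] at a
    exact a
  have h5 : σ 5 = τ 5 := by
    have a := hσ 1 3 (by decide)
    have b := hτ 1 3 (by decide)
    rw [h1, h3, ← b] at a
    exact a
  have h6 : σ 6 = τ 6 := by
    have a := hσ 2 3 (by decide)
    have b := hτ 2 3 (by decide)
    rw [h2, h3, ← b] at a
    exact a
  ext i
  fin_cases i
  · exact congrArg Fin.val h0
  · exact congrArg Fin.val h1
  · exact congrArg Fin.val h2
  · exact congrArg Fin.val h3
  · exact congrArg Fin.val h4
  · exact congrArg Fin.val h5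
  · exact congrArg Fin.val h6

theorem FL_complete (σ : Equiv.Perm (Fin 7)) (hσ : σ ∈ Fano) : σ ∈ FL := by
  rcases codes_complete (σ 0) (σ 1) (σ 3) with h | h | h | h | h
  · exact absurd (σ.injective h) (by decide)
  · exact absurd (σ.injective h) (by decide)
  · exact absurd (σ.injective h) (by decide)
  · rw [← hσ 0 1 (by decide)] at h
    exact absurd (σ.injective h) (by decide)
  · obtain ⟨k, hk, h⟩ := List.any_eq_true.1 h
    obtain ⟨h0, h1, h3⟩ := of_decide_eq_true h
    have hm : mk k ∈ FL := List.mem_map.2 ⟨k, hk, rfl⟩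
    rw [fano_ext hσ (FL_sound _ hm) h0.symm h1.symm h3.symm]
    exact hm

theorem FL_nodup : FL.Nodup := by decide +kernel

/-- the list of all elements. -/
def FLs : List Fano := FL.pmap (fun σ h => ⟨σ, h⟩) FL_sound

theorem FLs_nodup : FLs.Nodup :=
  FL_nodup.pmap fun _ _ _ _ h => congrArg Subtype.val h

instance fanoFintype : Fintype Fano :=
  ⟨⟨FLs, FLs_nodup⟩, by
    rintro ⟨σ, h⟩
    show (⟨σ, h⟩ : Fano) ∈ FLs
    unfold FLs
    rw [List.mem_pmap]
    exact ⟨σ, FL_complete σ h, rfl⟩⟩

theorem card_Fano : Fintype.card Fano = 168 := by decide +kernel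

theorem p1 : Fintype.card {x : Fano // x ^ 1 = 1 ∧ ∀ m, m < 1 → 0 < m → x ^ m ≠ 1} = 1 := by
  decide +kernel
theorem p2 : Fintype.card {x : Fano // x ^ 2 = 1 ∧ ∀ m, m < 2 → 0 < m → x ^ m ≠ 1} = 21 := by
  decide +kernel
theorem p3 : Fintype.card {x : Fano // x ^ 3 = 1 ∧ ∀ m, m < 3 → 0 < m → x ^ m ≠ 1} = 56 := by
  decide +kernel
theorem p4 : Fintype.card {x : Fano // x ^ 4 = 1 ∧ ∀ m, m < 4 → 0 < m → x ^ m ≠ 1} = 42 := by
  decide +kernel
theorem p7 : Fintype.card {x : Fano // x ^ 7 = 1 ∧ ∀ m, m < 7 → 0 < m → x ^ m ≠ 1} = 48 := by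
  decide +kernel

theorem mem_of_code {c : ℕ} (h : c ∈ codes) : mk c ∈ Fano :=
  FL_sound _ (List.mem_map.2 ⟨c, h, rfl⟩)

def fx : Fano := ⟨mk 111923, mem_of_code (by decide)⟩
def fy : Fano := ⟨mk 97336, mem_of_code (by decide)⟩
def fz : Fano := ⟨mk 97175, mem_of_code (by decide)⟩

theorem fano_key : ∃ x y z : Fano, x ≠ 1 ∧ x = z * (x * (y * x * y⁻¹) * x⁻¹ * (y * x * y⁻¹)⁻¹) * z⁻¹ :=
  ⟨fx, fy, fz, by decide +kernel, by decide +kernel⟩

open scoped commutatorElement in
theorem fano_not_solvable : ¬ Group.IsSolvable Fano := by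
  obtain ⟨x, y, z, hx, key⟩ := fano_key
  have key' : x = z * ⁅x, y * x * y⁻¹⁆ * z⁻¹ := key
  refine not_isSolvable_of_mem_derivedSeries hx fun n => ?_
  induction n with
  | zero => exact Subgroup.mem_top x
  | succ n ih =>
    rw [key', (derivedSeries_normal _ _).mem_comm_iff, inv_mul_cancel_left]
    exact Subgroup.commutator_mem_commutator ih ((derivedSeries_normal _ _).conj_mem _ ih _)

/-- **Rung D**: the solution-counting function of `L₂(7)`. -/
theorem exists_L27 : ∃ (X : Type) (_ : Group X), Finite X ∧ ¬ Group.IsSolvable X ∧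
    ∀ d : ℕ, Nat.card {x : X // x ^ d = 1} =
      1 + (if 2 ∣ d then 21 else 0) + (if 3 ∣ d then 56 else 0) + (if 4 ∣ d then 42 else 0) +
        (if 7 ∣ d then 48 else 0) := by
  refine ⟨Fano, inferInstance, inferInstance, fano_not_solvable, fun d => ?_⟩
  rw [cnt_of_ordc Fano {1, 2, 3, 4, 7}
    (fun o => if o = 1 then 1 else if o = 2 then 21 else if o = 3 then 56 else
      if o = 4 then 42 else 48) ?_ ?_ d]
  · by_cases h2 : 2 ∣ d <;> by_cases h3 : 3 ∣ d <;> by_cases h7 : 7 ∣ d <;>
      by_cases h4 : 4 ∣ d <;> simp [h2, h3, h7, h4]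
  · intro o ho
    simp only [Finset.mem_insert, Finset.mem_singleton] at ho
    rcases ho with rfl | rfl | rfl | rfl | rfl
    · rw [card_orderOf_eq _ _ (by norm_num), p1]; rfl
    · rw [card_orderOf_eq _ _ (by norm_num), p2]; rfl
    · rw [card_orderOf_eq _ _ (by norm_num), p3]; rfl
    · rw [card_orderOf_eq _ _ (by norm_num), p4]; rfl
    · rw [card_orderOf_eq _ _ (by norm_num), p7]; rfl
  · rw [Nat.card_eq_fintype_card, card_Fano]; rfl

end Cfsg.Agent.Lib.Helper93.Th
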