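import Mathlib
import Cfsg.Prelude.Def_Solvable
import Cfsg.Agent.S0023
import Cfsg.Agent.Lib.Helper12.Card
import Cfsg.Agent.Lib.Helper80.Cores

set_option autoImplicit false

namespace Cfsg.Agent.Lib.Helper93

open Subgroup
open scoped Pointwise

variable {G : Type*} [Group G]

/-- if `d` (with `d * d = 1`) inverts `m` of odd order, then `d * m` is conjugate to `d` by a power
of `m`. -/
theorem exists_pow_conj_of_inverted {d m : G} (hdd : d * d = 1) (hinv : d * m * d⁻¹ = m⁻¹)
    (hodd : Odd (orderOf m)) : ∃ j : ℕ, d * m = (m ^ j)⁻¹ * d * m ^ j := by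
  obtain ⟨j, hj⟩ := hodd
  refine ⟨j + 1, ?_⟩
  have hdinv : d⁻¹ = d := inv_eq_of_mul_eq_one_left hdd
  have h1 : d * m ^ (j + 1) * d⁻¹ = (m ^ (j + 1))⁻¹ := by
    rw [← conj_pow, hinv, inv_pow]
  have h2 : m ^ (j + 1) * m ^ (j + 1) = m := by
    rw [← pow_add]
    have : j + 1 + (j + 1) = orderOf m + 1 := by omega
    rw [this, pow_succ, pow_orderOf_eq_one, one_mul]
  set r := m ^ (j + 1) with hr
  have h3 : d * r = r⁻¹ * d := by
    have := congrArg (· * d) h1
    simpa [mul_assoc] using this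
  have h4 : d * m = m⁻¹ * d := by
    have := congrArg (· * d) hinv
    simpa [mul_assoc] using this
  rw [h4, mul_assoc, h3, ← mul_assoc, ← mul_inv_rev, h2]

theorem mul_mem_pCore_of_odd_normal [Finite G] {p : ℕ} (hp : p.Prime)
    (d : G) (hd : orderOf d = 2)
    (hprod : ∀ a ∈ conjugatesOf d, ∀ b ∈ conjugatesOf d, ∃ k : ℕ, orderOf (a * b) = p ^ k)
    (N : Subgroup G) (hN : N.Normal) (hodd : Odd (Nat.card N))
    (hcomm : ∀ g : G, d * g * d⁻¹ * g⁻¹ ∈ N) :
    ∀ a ∈ conjugatesOf d, ∀ b ∈ conjugatesOf d, a * b ∈ Cfsg.pCore p G := by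
  classical
  have : Fact p.Prime := ⟨hp⟩
  have hdd : d * d = 1 := by
    have := pow_orderOf_eq_one d
    rwa [hd, pow_two] at this
  have hdinv : d⁻¹ = d := inv_eq_of_mul_eq_one_left hdd
  have hoddN : ∀ m ∈ N, Odd (orderOf m) := by
    intro m hm
    have h1 : orderOf (⟨m, hm⟩ : N) ∣ Nat.card N := orderOf_dvd_natCard _
    rw [Subgroup.orderOf_mk] at h1
    exact hodd.of_dvd_nat h1
  -- Step 1
  have step1 : ∀ m ∈ N, d * m * d⁻¹ = m⁻¹ → ∃ k : ℕ, orderOf m = p ^ k := by
    intro m hm hinv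
    obtain ⟨j, hj⟩ := exists_pow_conj_of_inverted hdd hinv (hoddN m hm)
    have h1 : d * m ∈ conjugatesOf d := by
      rw [hj]
      refine isConj_iff.2 ⟨(m ^ j)⁻¹, ?_⟩
      simp
    have h2 := hprod d (mem_conjugatesOf_self) (d * m) h1
    rwa [← mul_assoc, hdd, one_mul] at h2
  -- the acting group
  set A : Subgroup G := Subgroup.zpowers d with hA
  have hAN : A ≤ Subgroup.normalizer (N : Set G) := by
    rw [Subgroup.normalizer_eq_top_iff.2 hN]; exact le_top
  have hcardA : Nat.card A = 2 := by rw [hA, Nat.card_zpowers, hd]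
  have hcop : (Nat.card A).Coprime (Nat.card N) := by
    rw [hcardA]; exact (Nat.coprime_two_left).2 hodd
  have hsolv : Group.IsSolvable A ∨ Group.IsSolvable N := by
    left
    have : IsCyclic A := by rw [hA]; infer_instance
    let _ : CommGroup A := IsCyclic.commGroup
    infer_instance
  set H : Subgroup N := (Subgroup.centralizer ({d} : Set G)).subgroupOf N with hH
  -- Step 2
  have step2 : ∀ q : ℕ, q.Prime → q ≠ p → ¬ q ∣ H.index := by
    intro q hq hqp
    have : Fact q.Prime := ⟨hq⟩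
    obtain ⟨Q, hQ⟩ := Cfsg.Agent.S0023.result A N hAN hcop hsolv q
    have hdQ : d ∈ Subgroup.normalizer ((Q : Subgroup N).map N.subtype : Set G) :=
      hQ (Subgroup.mem_zpowers d)
    have hQH : (Q : Subgroup N) ≤ H := by
      intro u hu
      have hu' : (u : G) ∈ (Q : Subgroup N).map N.subtype := ⟨u, hu, rfl⟩
      have h1 : d * (u : G) * d⁻¹ ∈ (Q : Subgroup N).map N.subtype :=
        (Subgroup.mem_normalizer_iff.1 hdQ _).1 hu'
      set w : G := (u : G)⁻¹ * (d * (u : G) * d⁻¹) with hw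
      have hwQ : w ∈ (Q : Subgroup N).map N.subtype := mul_mem (inv_mem hu') h1
      have hwN : w ∈ N := by
        obtain ⟨x, _, hx⟩ := hwQ
        rw [← hx]; exact x.2
      have hwinv : d * w * d⁻¹ = w⁻¹ := by
        rw [hw, hdinv]
        simp only [mul_inv_rev, hdinv, inv_inv, mul_assoc]
        rw [hdd, mul_one]
      obtain ⟨k, hk⟩ := step1 w hwN hwinv
      obtain ⟨x, hxQ, hx⟩ := hwQ
      obtain ⟨l, hl⟩ := (IsPGroup.iff_orderOf.1 Q.2) ⟨x, hxQ⟩
      have hl' : orderOf w = q ^ l := by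
        rw [← hx]
        simpa [Subgroup.orderOf_mk] using hl
      have hw1 : w = 1 := by
        rw [← orderOf_eq_one_iff]
        rcases Nat.eq_zero_or_pos k with hk0 | hk0
        · rw [hk, hk0, pow_zero]
        · exfalso
          have : p ∣ q ^ l := by
            rw [← hl', hk]; exact dvd_pow_self p hk0.ne'
          exact hqp ((Nat.prime_dvd_prime_iff_eq hp hq).1 (hp.dvd_of_dvd_pow this)).symm
      rw [hH, Subgroup.mem_subgroupOf, Subgroup.mem_centralizer_singleton_iff]
      have h2 : d * (u : G) * d⁻¹ = u := by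
        have := congrArg ((u : G) * ·) hw1
        simpa [hw, mul_assoc] using this
      have := congrArg (· * d) h2
      simpa [mul_assoc] using this.symm
    intro hdvd
    exact Q.not_dvd_index (hdvd.trans (Subgroup.index_dvd_of_le hQH))
  -- Step 3
  obtain ⟨T, hT⟩ := Cfsg.Agent.S0023.result A N hAN hcop hsolv p
  have hdT : d ∈ Subgroup.normalizer ((T : Subgroup N).map N.subtype : Set G) :=
    hT (Subgroup.mem_zpowers d)
  have hcopi : (H.index).Coprime (T : Subgroup N).index := by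
    apply Nat.coprime_of_dvd
    intro q hq h1 h2
    by_cases hqp : q = p
    · subst hqp
      exact T.not_dvd_index h2
    · exact step2 q hq hqp h1
  have hfac := Cfsg.Agent.Lib.Helper12.mul_eq_univ_of_coprime_index H (T : Subgroup N) hcopi
  set T' : Subgroup G := (T : Subgroup N).map N.subtype with hT'
  -- Step 4
  have step4 : ∀ a ∈ conjugatesOf d, d * a ∈ T' := by
    intro a ha
    obtain ⟨g, hg⟩ := isConj_iff.1 ha
    have haa : a * a = 1 := by
      rw [← hg]; simp [mul_assoc]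
      rw [← mul_assoc d d, hdd, one_mul, mul_inv_cancel]
    have hainv : a⁻¹ = a := inv_eq_of_mul_eq_one_left haa
    have hmN : d * a ∈ N := by
      have := hcomm g
      rw [hdinv] at this
      rw [← hg]
      simpa [mul_assoc] using this
    have hminv : d * (d * a) * d⁻¹ = (d * a)⁻¹ := by
      rw [mul_inv_rev, hainv, ← mul_assoc, hdd, one_mul]
    obtain ⟨j, hj⟩ := exists_pow_conj_of_inverted hdd hminv (hoddN _ hmN)
    rw [← mul_assoc, hdd, one_mul] at hj
    have hrN : (d * a) ^ j ∈ N := pow_mem hmN j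
    have hmem : (⟨(d * a) ^ j, hrN⟩ : N) ∈ (H : Set N) * ((T : Subgroup N) : Set N) := by
      rw [hfac]; exact Set.mem_univ _
    obtain ⟨h, hh, t, ht, hht⟩ := Set.mem_mul.1 hmem
    have hr : (d * a) ^ j = (h : G) * (t : G) := by
      have := congrArg (Subtype.val) hht
      simpa using this.symm
    have hhd : (h : G) * d = d * (h : G) := by
      have : (h : G) ∈ Subgroup.centralizer ({d} : Set G) := hh
      rw [Subgroup.mem_centralizer_singleton_iff] at this
      exact this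
    have ha' : a = (t : G)⁻¹ * d * (t : G) := by
      rw [hj, hr, mul_inv_rev]
      have : (h : G)⁻¹ * d * (h : G) = d := by
        rw [mul_assoc, ← hhd, inv_mul_cancel_left]
      calc (t : G)⁻¹ * (h : G)⁻¹ * d * ((h : G) * (t : G))
          = (t : G)⁻¹ * ((h : G)⁻¹ * d * (h : G)) * (t : G) := by group
        _ = _ := by rw [this]
    have htT : (t : G) ∈ T' := ⟨t, ht, rfl⟩
    have h1 : d * (t : G)⁻¹ * d⁻¹ ∈ T' :=
      (Subgroup.mem_normalizer_iff.1 hdT _).1 (inv_mem htT)
    have : d * a = (d * (t : G)⁻¹ * d⁻¹) * (t : G) := by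
      rw [ha', hdinv]; group
    rw [this]
    exact mul_mem h1 htT
  have step4' : ∀ a ∈ conjugatesOf d, ∀ b ∈ conjugatesOf d, a * b ∈ T' := by
    intro a ha b hb
    have h1 := step4 a ha
    have h2 := step4 b hb
    obtain ⟨g, hg⟩ := isConj_iff.1 ha
    have haa : a * a = 1 := by
      rw [← hg]; simp [mul_assoc]
      rw [← mul_assoc d d, hdd, one_mul, mul_inv_cancel]
    have hainv : a⁻¹ = a := inv_eq_of_mul_eq_one_left haa
    have h3 : a * d ∈ T' := by
      have := inv_mem h1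
      rwa [mul_inv_rev, hainv, hdinv] at this
    have : a * b = (a * d) * (d * b) := by
      rw [mul_assoc, ← mul_assoc d d, hdd, one_mul]
    rw [this]
    exact mul_mem h3 h2
  -- Step 5
  set S : Set G := {x | ∃ a ∈ conjugatesOf d, ∃ b ∈ conjugatesOf d, x = a * b} with hS
  have hM : Subgroup.normalClosure S ≤ T' := by
    rw [Subgroup.normalClosure, Subgroup.closure_le]
    intro y hy
    obtain ⟨x, ⟨a, ha, b, hb, rfl⟩, hxy⟩ := Group.mem_conjugatesOfSet_iff.1 hy
    obtain ⟨g, hg⟩ := isConj_iff.1 hxy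
    have : y = (g * a * g⁻¹) * (g * b * g⁻¹) := by rw [← hg]; group
    rw [this]
    apply step4'
    · exact (show IsConj d a from ha).trans (isConj_iff.2 ⟨g, rfl⟩)
    · exact (show IsConj d b from hb).trans (isConj_iff.2 ⟨g, rfl⟩)
  have hTp : IsPGroup p T' := by
    rw [hT']
    exact T.2.map _
  have hMp : IsPGroup p (Subgroup.normalClosure S) := hTp.to_le hM
  intro a ha b hb
  exact Cfsg.Agent.Lib.Helper80.le_pCore Subgroup.normalClosure_normal hMp
    (Subgroup.subset_normalClosure ⟨a, ha, b, hb, rfl⟩)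

/-- conditional form: the conclusion of the Z*-theorem for `G` gives the `O_p` statement. -/
theorem mul_mem_pCore_of_zstar [Finite G]
    (hZ : ∀ (P : Sylow 2 G) (u : G), orderOf u = 2 → u ∈ P →
      (∀ g : G, g * u * g⁻¹ ∈ P → g * u * g⁻¹ = u) →
      ∃ N : Subgroup G, N.Normal ∧ Odd (Nat.card N) ∧ ∀ g : G, (u * g * u⁻¹ * g⁻¹) ∈ N)
    {p : ℕ} (hp : p.Prime) (hp2 : p ≠ 2)
    (d : G) (hd : orderOf d = 2)
    (hprod : ∀ a ∈ conjugatesOf d, ∀ b ∈ conjugatesOf d, ∃ k : ℕ, orderOf (a * b) = p ^ k) :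
    ∀ a ∈ conjugatesOf d, ∀ b ∈ conjugatesOf d, a * b ∈ Cfsg.pCore p G := by
  classical
  have : Fact (Nat.Prime 2) := ⟨Nat.prime_two⟩
  have hdd : d * d = 1 := by
    have := pow_orderOf_eq_one d
    rwa [hd, pow_two] at this
  have hdinv : d⁻¹ = d := inv_eq_of_mul_eq_one_left hdd
  have hd2 : IsPGroup 2 (Subgroup.zpowers d) := by
    apply IsPGroup.of_card (n := 1)
    rw [Nat.card_zpowers, hd, pow_one]
  obtain ⟨P, hP⟩ := hd2.exists_le_sylow
  have hdP : d ∈ P := hP (Subgroup.mem_zpowers d)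
  have hiso : ∀ g : G, g * d * g⁻¹ ∈ P → g * d * g⁻¹ = d := by
    intro g hg
    obtain ⟨k, hk⟩ := hprod d mem_conjugatesOf_self (g * d * g⁻¹) (isConj_iff.2 ⟨g, rfl⟩)
    have hmem : d * (g * d * g⁻¹) ∈ P := mul_mem hdP hg
    obtain ⟨l, hl⟩ := (IsPGroup.iff_orderOf.1 P.2) ⟨_, hmem⟩
    rw [Subgroup.orderOf_mk] at hl
    have h1 : d * (g * d * g⁻¹) = 1 := by
      rw [← orderOf_eq_one_iff]
      rcases Nat.eq_zero_or_pos k with hk0 | hk0
      · rw [hk, hk0, pow_zero]
      · exfalso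
        have : p ∣ 2 ^ l := by
          rw [← hl, hk]; exact dvd_pow_self p hk0.ne'
        exact hp2 ((Nat.prime_dvd_prime_iff_eq hp Nat.prime_two).1 (hp.dvd_of_dvd_pow this))
    have h2 := eq_inv_of_mul_eq_one_right h1
    rw [h2, hdinv]
  obtain ⟨N, hN, hodd, hcomm⟩ := hZ P d hd hdP hiso
  exact mul_mem_pCore_of_odd_normal hp d hd hprod N hN hodd hcomm

end Cfsg.Agent.Lib.Helper93
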